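import Cfsg.Agent.CpAutHNFive.Main
import Cfsg.Agent.BpSpor.Arith
import Cfsg.Agent.H646.NB.LocalP
import Cfsg.Agent.S0205
import Cfsg.Agent.S0204
import Cfsg.Agent.S0507

/-!
# `HN`, `p = 5` (S4555/S4559): the component of the centraliser of an element of the class 5A (helper513)

* `exists_comp` : `C(x) / O_{5'}(C(x))` has a component;
* `comp_data` : it is normal, its centraliser has odd order, modulo the center it is `PSU₃(5)`.
-/

set_option autoImplicit false

namespace Cfsg.Agent.H513.HNF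

open Subgroup Cfsg Cfsg.Agent.SignalizersComponents
open Cfsg.Agent.CpAutHNFive Cfsg.Agent.CpAutHNFive.QD
open Cfsg.Agent.CpAutTh.RankOne (UInv)

/-- `C(x) / O_{5'}(C(x))` has a component if it contains elements of order 7 -/
theorem exists_comp {H : Type} [Group H] [Finite H] {x y : H} (hx : orderOf x = 5) (hxc : x ∈ center H)
    (hy : y ^ 7 = 1) (hyR : y ∉ pPrimeCore 5 H) (h5 : ¬ 5 ^ 7 ∣ Nat.card H) :
    ∃ L : Subgroup (H ⧸ pPrimeCore 5 H), IsComponent L := by
  have hp5 : Fact (Nat.Prime 5) := ⟨Nat.prime_five⟩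
  have hn := Lib.Cores.pPrimeCore_normal (G := H) 5
  have hcop := Lib.Cores.pPrimeCore_coprime (G := H) 5
  by_contra hno
  push Not at hno
  let π := QuotientGroup.mk' (pPrimeCore 5 H)
  have hb : pPrimeCore 5 (H ⧸ pPrimeCore 5 H) = ⊥ := Lib.Cores.pPrimeCore_quotient_pPrimeCore 5
  have hF := H646.NB.genFit_eq_of (p := 5) hb hno
  have hC := Cfsg.Agent.Lib.GenFitting.centralizer_genFitting_le (G := H ⧸ pPrimeCore 5 H)
  rw [hF] at hC
  have hQ : IsPGroup 5 ↥(pCore 5 (H ⧸ pPrimeCore 5 H)) := Lib.Cores.pCore_isPGroup 5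
  have hQn : (pCore 5 (H ⧸ pPrimeCore 5 H)).Normal := Lib.Cores.pCore_normal 5
  -- `x`
  have hxR : π x ≠ 1 := by
    intro h
    have h1 : x ∈ pPrimeCore 5 H := (QuotientGroup.eq_one_iff x).1 h
    have h2 : orderOf (⟨x, h1⟩ : ↥(pPrimeCore 5 H)) ∣ Nat.card ↥(pPrimeCore 5 H) := orderOf_dvd_natCard _
    rw [Subgroup.orderOf_mk, hx] at h2
    have h3 := Nat.dvd_gcd h2 (dvd_refl 5)
    rw [hcop.gcd_eq_one] at h3
    norm_num at h3
  have hx5 : orderOf (π x) = 5 := by
    have hx1 : x ^ 5 = 1 := by rw [← hx, pow_orderOf_eq_one]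
    apply orderOf_eq_prime _ hxR
    rw [← map_pow, hx1, map_one]
  have hxc' : ∀ a : H ⧸ pPrimeCore 5 H, a * π x = π x * a := by
    intro a
    obtain ⟨a, rfl⟩ := QuotientGroup.mk'_surjective _ a
    show π a * π x = π x * π a
    rw [← map_mul, ← map_mul, mem_center_iff.1 hxc a]
  have hxQ : π x ∈ pCore 5 (H ⧸ pPrimeCore 5 H) := by
    have hzn : (zpowers (π x)).Normal := by
      refine ⟨fun b hb a => ?_⟩
      obtain ⟨k, rfl⟩ := hb
      have h1 : a * π x ^ k * a⁻¹ = π x ^ k := by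
        rw [mul_inv_eq_iff_eq_mul]
        exact ((show Commute a (π x) from hxc' a).zpow_right k).eq
      show a * π x ^ k * a⁻¹ ∈ _
      rw [h1]
      exact ⟨k, rfl⟩
    exact Lib.Cores.le_pCore hzn (IsPGroup.of_card (n := 1) (by rw [Nat.card_zpowers, hx5, pow_one]))
      (mem_zpowers _)
  -- `y` centralises `O_5`
  have hyc : pCore 5 (H ⧸ pPrimeCore 5 H) ≤ centralizer ({π y} : Set (H ⧸ pPrimeCore 5 H)) := by
    refine BpSpor.Arith.cent_of_index (p := 7) (by norm_num) (n := 1) (by rw [pow_one, ← map_pow, hy, map_one])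
      Nat.prime_five (by norm_num) hQ ?_ ?_
    · rw [normalizer_eq_top]
      exact mem_top _
    · intro m hm1 hm hcard
      have h1 : 5 ∣ Nat.card ↥(pCore 5 (H ⧸ pPrimeCore 5 H) ⊓ centralizer ({π y} : Set (H ⧸ pPrimeCore 5 H)) :
          Subgroup (H ⧸ pPrimeCore 5 H)) := by
        have h0 : π x ∈ (pCore 5 (H ⧸ pPrimeCore 5 H) ⊓ centralizer ({π y} : Set (H ⧸ pPrimeCore 5 H)) :
            Subgroup (H ⧸ pPrimeCore 5 H)) := mem_inf.2 ⟨hxQ, mem_centralizer_singleton_iff.2 (hxc' _).symm⟩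
        have h2 := card_dvd_of_le (zpowers_le.2 h0)
        rwa [Nat.card_zpowers, hx5] at h2
      have h3 : 5 ^ (m + 1) ∣ Nat.card H := by
        have h4 : 5 ^ (m + 1) ∣ Nat.card ↥(pCore 5 (H ⧸ pPrimeCore 5 H)) := by
          rw [← hcard, pow_succ]
          exact Nat.mul_dvd_mul (dvd_refl _) h1
        exact h4.trans ((card_subgroup_dvd_card _).trans (card_quotient_dvd_card _))
      have hm6 : m < 6 := by
        by_contra hcon
        apply h5
        exact (pow_dvd_pow 5 (by omega)).trans h3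
      interval_cases m <;> norm_num
  -- `y` is a 5-element
  have h1 : π y ∈ centralizer (pCore 5 (H ⧸ pPrimeCore 5 H) : Set (H ⧸ pPrimeCore 5 H)) := by
    rw [mem_centralizer_iff]
    intro q hq
    exact mem_centralizer_singleton_iff.1 (hyc hq)
  obtain ⟨k, hk⟩ := hQ ⟨π y, hC h1⟩
  have hk' : (π y) ^ 5 ^ k = 1 := congrArg Subtype.val hk
  have h7 : (π y) ^ 7 = 1 := by rw [← map_pow, hy, map_one]
  have h8 : orderOf (π y) = 1 := by
    refine Nat.eq_one_of_dvd_coprimes (a := 5 ^ k) (b := 7) (Nat.Coprime.pow_left k (by norm_num)) ?_ ?_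
    · exact orderOf_dvd_of_pow_eq_one hk'
    · exact orderOf_dvd_of_pow_eq_one h7
  rw [orderOf_eq_one_iff] at h8
  exact hyR ((QuotientGroup.eq_one_iff y).1 h8)

/-- **The component** -/
theorem comp_data {H : Type} [Group H] [Finite H] {g h w : H} {J : Subgroup H} {u v : H} (X : Dat g h w J u v)
    (hcard : Nat.card H ∣ Num.N0) (L : Subgroup (H ⧸ pPrimeCore 5 H)) (hL : IsComponent L) :
    L.Normal ∧ Odd (Nat.card ↥(centralizer (L : Set (H ⧸ pPrimeCore 5 H)))) ∧
      QuotientGroup.mk' (pPrimeCore 5 H) g ∈ L ∧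
      ∃ (F : Type) (_ : Field F) (_ : Fintype F), Fintype.card F = 5 ^ 2 ∧ Nonempty ((↥L ⧸ center ↥L) ≃* PSU 3 F 5) := by
  have : Fact (Nat.Prime 2) := ⟨Nat.prime_two⟩
  have : Fact (Nat.Prime 5) := ⟨Nat.prime_five⟩
  have hn := Lib.Cores.pPrimeCore_normal (G := H) 5
  have hR := X.odd_core
  have FT : ∀ (K : Type) [Group K] [Finite K], Odd (Nat.card K) → Group.IsSolvable K :=
    fun _ _ _ h => S0205.result h
  have h204 : ∀ (K : Type) [Group K] [Finite K] [IsSimpleGroup K], ¬ IsCyclic K → ∃ E : Subgroup K, IsKleinFour E :=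
    fun _ _ _ _ h => S0204.result h
  set R := pPrimeCore 5 H with hRdef
  let π := QuotientGroup.mk' R
  have hb : pPrimeCore 5 (H ⧸ R) = ⊥ := Lib.Cores.pPrimeCore_quotient_pPrimeCore 5
  have hZ : IsPGroup 5 ↥(center ↥L) := LThree.Red.isPGroup_center_comp Nat.prime_five hb hL.1
  have hZ2 : Odd (Nat.card ↥(center ↥L)) := by
    obtain ⟨n, hn⟩ := IsPGroup.iff_card.1 hZ
    rw [hn]
    exact (show Odd 5 by decide).pow
  have hsimp : IsSimpleGroup (↥L ⧸ center ↥L) := hL.2.2
  have hcyc := not_cyclic_of_quasisimple hL.2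
  -- the Sylow 2-subgroup of `H / R`
  have h32 : ¬ 32 ∣ Nat.card (H ⧸ R) := fun h1 => X.not32 (h1.trans (card_quotient_dvd_card R))
  have ho4 : orderOf (g ^ 4) = 2 := by rw [orderOf_pow, X.D.hg]; norm_num
  have D1 : QDat (π g) (π h) := X.D.map π (fun h1 => not_mem_of_odd hR ho4 ((QuotientGroup.eq_one_iff _).1 h1))
  -- two commuting involutions of `L`
  obtain ⟨a, b, ha, hb2, hab, hne⟩ : ∃ a b : ↥L, orderOf a = 2 ∧ orderOf b = 2 ∧ a * b = b * a ∧ a ≠ b := by
    by_contra hcon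
    push Not at hcon
    have hU : UInv ↥L := fun a b ha hb hab => hcon a b ha hb hab
    exact not_uInv h204 hcyc (hU.quot _ hZ2)
  -- the centraliser of `L` has odd order
  have hW : Odd (Nat.card ↥(centralizer (L : Set (H ⧸ R)))) := by
    rw [← Nat.not_even_iff_odd]
    intro he
    obtain ⟨y, hy⟩ := exists_prime_orderOf_dvd_card' 2 (even_iff_two_dvd.1 he)
    have hy2 : orderOf (y : H ⧸ R) = 2 := by rw [Subgroup.orderOf_coe, hy]
    have hyc : ∀ l ∈ L, l * (y : H ⧸ R) = y * l := fun l hl => mem_centralizer_iff.1 y.2 l hl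
    have h1 := rank_two D1 h32 (a := (a : H ⧸ R)) (b := (b : H ⧸ R)) (y := y) (by rw [Subgroup.orderOf_coe, ha])
      (by rw [Subgroup.orderOf_coe, hb2]) hy2 (congrArg Subtype.val hab) (hyc a a.2) (hyc b b.2)
      (fun h => hne (Subtype.ext h))
    have hyL : (y : H ⧸ R) ∈ L := by
      rcases h1 with h1 | h1 | h1 <;> rw [h1]
      · exact a.2
      · exact b.2
      · exact L.mul_mem a.2 b.2
    refine not_mem_of_odd hZ2 (t := (⟨y, hyL⟩ : ↥L)) (by rw [← Subgroup.orderOf_coe]; exact hy2) ?_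
    rw [mem_center_iff]
    intro l
    exact Subtype.ext (hyc l l.2)
  have huniq : ∀ M : Subgroup (H ⧸ R), IsComponent M → M = L := by
    intro M hM
    by_contra hne
    have h1 := Components.component_le_centralizer_of_ne hM hL hne
    have h2 : Odd (Nat.card ↥M) := hW.of_dvd_nat (card_dvd_of_le h1)
    exact Components.quasisimple_not_isSolvable hM.2 (FT _ h2)
  have hLn : L.Normal := by
    refine ⟨fun n hn g => ?_⟩
    have h1 := huniq _ (Components.isComponent_conj g hL)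
    have h2 : (MulAut.conj g) n ∈ L.map (MulAut.conj g).toMonoidHom := ⟨n, hn, rfl⟩
    rw [h1] at h2
    exact h2
  -- the preimage of `L`
  have hNn : (L.comap π).Normal := hLn.comap π
  let θ₁ : ↥(L.comap π) →* ↥L := π.subgroupComap L
  have hθ₁ : Function.Surjective θ₁ := π.subgroupComap_surjective_of_surjective L (QuotientGroup.mk'_surjective R)
  have hNe : 2 ∣ Nat.card ↥(L.comap π) := by
    have h1 : orderOf a ∣ Nat.card ↥L := orderOf_dvd_natCard _
    rw [ha] at h1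
    exact h1.trans (card_dvd_of_surjective θ₁ hθ₁)
  have hJ := X.le_of_even (N := L.comap π) hNe
  obtain ⟨hgN, hhN⟩ := X.mem_of_le (N := L.comap π) hJ
  let θ : ↥(L.comap π) →* ↥L ⧸ center ↥L := (QuotientGroup.mk' (center ↥L)).comp θ₁
  have hθ : ∀ t : ↥(L.comap π), orderOf t = 2 → θ t ≠ 1 := by
    intro t ht h1
    have ht2 : orderOf (t : H) = 2 := by rw [Subgroup.orderOf_coe, ht]
    have h2 : θ₁ t ∈ center ↥L := (QuotientGroup.eq_one_iff _).1 h1
    have h3 : θ₁ t ≠ 1 := by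
      intro h3
      apply not_mem_of_odd hR ht2
      rw [← QuotientGroup.eq_one_iff]
      exact congrArg Subtype.val h3
    have h4 : orderOf (θ₁ t) = 2 := by
      apply orderOf_eq_prime _ h3
      rw [← map_pow, ← ht, pow_orderOf_eq_one, map_one]
    exact not_mem_of_odd hZ2 h4 h2
  -- the Sylow 2-subgroup of the simple group
  have D2 : QDat (⟨g, hgN⟩ : ↥(L.comap π)) ⟨h, hhN⟩ := by
    refine ⟨?_, ?_, Subtype.ext X.D.hgh⟩
    · rw [← Subgroup.orderOf_coe]; exact X.D.hg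
    · rw [← Subgroup.orderOf_coe]; exact X.D.hh
  have D3 : QDat (θ ⟨g, hgN⟩) (θ ⟨h, hhN⟩) := by
    refine D2.map θ (hθ _ ?_)
    rw [orderOf_pow, D2.hg]
    norm_num
  have hKH : Nat.card (↥L ⧸ center ↥L) ∣ Nat.card H :=
    (card_quotient_dvd_card _).trans ((card_subgroup_dvd_card L).trans (card_quotient_dvd_card R))
  obtain ⟨S, hS⟩ := D3.exists_syl fun h1 => X.not32 (h1.trans hKH)
  have hqd : IsQuasiDihedral ↥(S : Subgroup (↥L ⧸ center ↥L)) := by
    rw [hS]
    exact D3.isQuasiDihedral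
  -- the order is divisible by 7
  have h7 : 7 ∣ Nat.card (↥L ⧸ center ↥L) := by
    let κ : ↥J →* ↥L ⧸ center ↥L := θ.comp (inclusion hJ)
    have hsJ := X.simple
    have hκ : Function.Injective κ := by
      rw [← MonoidHom.ker_eq_bot_iff]
      rcases (inferInstance : κ.ker.Normal).eq_bot_or_eq_top with h1 | h1
      · exact h1
      · exfalso
        have h2 : (⟨u, X.uJ⟩ : ↥J) ∈ κ.ker := by rw [h1]; exact mem_top _
        refine hθ (inclusion hJ ⟨u, X.uJ⟩) ?_ h2
        rw [← Subgroup.orderOf_coe]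
        exact X.u2
    have h1 := card_dvd_of_injective κ hκ
    rw [X.card] at h1
    exact dvd_trans (by norm_num) h1
  refine ⟨hLn, hW, hgN, ?_⟩
  -- the list
  rcases S0507.result S hqd with ⟨F, _, _, h1, ⟨e⟩⟩ | ⟨F, _, _, q, hF, h1, ⟨e⟩⟩ | h1
  · exact (Num.false_psl (hKH.trans hcard) h1 e).elim
  · obtain rfl := Num.psu_five (hKH.trans hcard) hF h1 e
    exact ⟨F, _, _, hF, ⟨e⟩⟩
  · exfalso
    rw [h1.2] at h7
    norm_num at h7

end Cfsg.Agent.H513.HNF
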