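import Cfsg.Agent.H513.HNF.Comp
import Cfsg.Agent.H149.PGUGoal
import Cfsg.Agent.H55.OutGen
import Cfsg.Agent.H678.PV.Direct

/-!
# `HN`, `p = 5` (S4555/S4559): the quotient of the centraliser of an element of the class 5A (helper513)

* `hasDZ_quot` : `H̄ / C(L)` has a 5-character of defect zero for the component `L` of `H̄`;
* `not_dvd_ker` : `25 ∤ |ker (H → H̄ / C(L))|`.
-/

set_option autoImplicit false

namespace Cfsg.Agent.H513.HNF

open Subgroup Cfsg Cfsg.Agent.H713 Cfsg.Agent.H665.NoPQ Cfsg.Agent.SignalizersComponents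
open Cfsg.Agent.CpAutHNFive Cfsg.Agent.CpAutHNFive.QD

section quot

variable {H : Type} [Group H]

/-- an element which centralises a perfect normal subgroup modulo its centraliser -/
theorem mem_centralizer_of_comm {L : Subgroup H} (hLn : L.Normal) (hL : ⁅L, L⁆ = L) (y : H)
    (h : ∀ l ∈ L, ∀ m ∈ L, Commute (y * l * y⁻¹ * l⁻¹) m) : y ∈ centralizer (L : Set H) := by
  have h1 : L ≤ centralizer ({y} : Set H) := by
    rw [← hL, commutator_le]
    intro a ha b hb
    rw [mem_centralizer_singleton_iff]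
    obtain ⟨c, hc⟩ : ∃ c, c = y * a * y⁻¹ * a⁻¹ := ⟨_, rfl⟩
    obtain ⟨d, hd⟩ : ∃ d, d = y * b * y⁻¹ * b⁻¹ := ⟨_, rfl⟩
    have hcm := h a ha
    have hdm := h b hb
    rw [← hc] at hcm
    rw [← hd] at hdm
    have hdL : d ∈ L := by
      rw [hd]
      exact L.mul_mem (hLn.conj_mem b hb y) (L.inv_mem hb)
    have e1 : y * a * y⁻¹ = c * a := by rw [hc]; group
    have e2 : y * b * y⁻¹ = d * b := by rw [hd]; group
    have e3 : Commute c (a * (d * b) * a⁻¹) :=
      ((hcm a ha).mul_right ((hcm d hdL).mul_right (hcm b hb))).mul_right (hcm _ (L.inv_mem ha))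
    have e4 : Commute d (b * a⁻¹ * b⁻¹) :=
      ((hdm b hb).mul_right (hdm _ (L.inv_mem ha))).mul_right (hdm _ (L.inv_mem hb))
    have e5 : y * (a * b * a⁻¹ * b⁻¹) * y⁻¹ = a * b * a⁻¹ * b⁻¹ := by
      calc y * (a * b * a⁻¹ * b⁻¹) * y⁻¹ = (y * a * y⁻¹) * (y * b * y⁻¹) * (y * a * y⁻¹)⁻¹ * (y * b * y⁻¹)⁻¹ := by group
        _ = (c * (a * (d * b) * a⁻¹) * c⁻¹) * (b⁻¹ * d⁻¹) := by rw [e1, e2]; group
        _ = a * (d * b) * a⁻¹ * (b⁻¹ * d⁻¹) := by rw [e3.eq, mul_inv_cancel_right]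
        _ = a * (d * (b * a⁻¹ * b⁻¹) * d⁻¹) := by group
        _ = a * (b * a⁻¹ * b⁻¹) := by rw [e4.eq, mul_inv_cancel_right]
        _ = a * b * a⁻¹ * b⁻¹ := by group
    rw [commutatorElement_def]
    rw [mul_inv_eq_iff_eq_mul] at e5
    exact e5.symm
  rw [mem_centralizer_iff]
  intro l hl
  exact mem_centralizer_singleton_iff.1 (h1 hl)

/-- **The quotient** -/
theorem hasDZ_quot [Finite H] (L : Subgroup H) [hLn : L.Normal] (hL : IsComponent L) {F : Type} [Field F] [Fintype F]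
    (hF : Fintype.card F = 5 ^ 2) (e : (↥L ⧸ center ↥L) ≃* PSU 3 F 5) :
    HasDZ 5 (H ⧸ centralizer (L : Set H)) ∧ ¬ 5 ^ 4 ∣ Nat.card (H ⧸ centralizer (L : Set H)) := by
  have hp5 : Fact (Nat.Prime 5) := ⟨Nat.prime_five⟩
  obtain ⟨C, hC⟩ : ∃ C : Subgroup H, C = centralizer (L : Set H) := ⟨_, rfl⟩
  have hCn : C.Normal := by rw [hC]; infer_instance
  have hperf : ⁅L, L⁆ = L := by
    have h1 := hL.2.1
    have h2 : commutator ↥L = ⊤ := h1.commutator_eq_top
    have h3 := congrArg (Subgroup.map L.subtype) h2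
    rw [commutator_def, map_commutator, ← MonoidHom.range_eq_map, range_subtype] at h3
    exact h3
  let ρ := QuotientGroup.mk' C
  have hρs : Function.Surjective ρ := QuotientGroup.mk'_surjective C
  have hρ1 : ∀ x, ρ x = 1 ↔ x ∈ C := fun x => QuotientGroup.eq_one_iff x
  have hmemC : ∀ x, x ∈ C ↔ ∀ l ∈ L, l * x = x * l := by
    intro x
    rw [hC, mem_centralizer_iff]
    rfl
  let N := L.map ρ
  have hNn : N.Normal := hLn.map ρ hρs
  have hfs : Function.Surjective (ρ.subgroupMap L) := ρ.subgroupMap_surjective L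
  have hker : (ρ.subgroupMap L).ker = center ↥L := by
    ext l
    rw [MonoidHom.mem_ker, mem_center_iff]
    constructor
    · intro h l'
      have h1 : ρ l = 1 := congrArg Subtype.val h
      rw [hρ1, hmemC] at h1
      exact Subtype.ext (h1 l' l'.2)
    · intro h
      apply Subtype.ext
      show ρ l = 1
      rw [hρ1, hmemC]
      intro l' hl'
      exact congrArg Subtype.val (h ⟨l', hl'⟩)
  let eN : (↥L ⧸ center ↥L) ≃* ↥N :=
    (QuotientGroup.quotientMulEquivOfEq hker.symm).trans (QuotientGroup.quotientKerEquivOfSurjective _ hfs)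
  have hsimp : IsSimpleGroup (↥L ⧸ center ↥L) := hL.2.2
  have hNs : IsSimpleGroup ↥N := (CpQuot.Congr.isSimple_iff eN).1 hsimp
  have hNna : ¬ IsMulCommutative ↥N := by
    intro hc
    apply not_cyclic_of_quasisimple hL.2
    let _ : CommGroup ↥N := { (inferInstance : Group ↥N) with mul_comm := hc.is_comm.comm }
    have hcy : IsCyclic ↥N := inferInstance
    exact isCyclic_of_surjective eN.symm.toMonoidHom eN.symm.surjective
  have hNdz : HasDZ 5 ↥N := H678.PV.hasDZ_lie Nat.prime_five hNna (Num.isLieTypeChar hF (eN.symm.trans e))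
  -- the index
  have hcent : ∀ q : H ⧸ C, (∀ n ∈ N, q * n = n * q) → q = 1 := by
    intro q hq
    obtain ⟨y, rfl⟩ := hρs q
    rw [hρ1, hC]
    refine mem_centralizer_of_comm hLn hperf y fun l hl m hm => ?_
    have h1 : ρ (y * l * y⁻¹ * l⁻¹) = 1 := by
      rw [map_mul, map_mul, map_mul, hq (ρ l) (mem_map_of_mem ρ hl), mul_assoc (ρ l), ← map_mul ρ y, mul_inv_cancel,
        map_one, mul_one, ← map_mul, mul_inv_cancel, map_one]
    rw [hρ1, hmemC] at h1
    exact (h1 m hm).symm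
  let φ : H ⧸ C →* MulAut ↥N := MulAut.conjNormal
  have hφ : ∀ (q : H ⧸ C) (n : ↥N), (φ q n : H ⧸ C) = q * n * q⁻¹ := fun q n => MulAut.conjNormal_apply q n
  have hφi : ∀ q : H ⧸ C, φ q = 1 → q = 1 := by
    intro q hq
    refine hcent q fun n hn => ?_
    have h1 := hφ q ⟨n, hn⟩
    rw [hq] at h1
    have h2 : n = q * n * q⁻¹ := h1
    exact (eq_mul_inv_iff_mul_eq.1 h2).symm
  have hcomap : (MulAut.conj : ↥N →* MulAut ↥N).range.comap φ = N := by
    ext q
    rw [mem_comap]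
    constructor
    · rintro ⟨n, hn⟩
      have h1 : φ (q * (n : H ⧸ C)⁻¹) = 1 := by
        rw [map_mul, map_inv, ← hn, mul_inv_eq_one]
        ext m
        rw [hφ]
        rfl
      have h2 := hφi _ h1
      rw [mul_inv_eq_one] at h2
      rw [h2]
      exact n.2
    · intro hq
      refine ⟨⟨q, hq⟩, ?_⟩
      ext m
      rw [hφ]
      rfl
  have hidx : N.index ∣ Nat.card (Cfsg.Out ↥N) := by
    have h1 := index_comap (MulAut.conj : ↥N →* MulAut ↥N).range φ
    rw [hcomap] at h1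
    rw [h1, H55.OutGen.card_out_eq_index]
    exact relIndex_dvd_index_of_normal _ _
  have hout : Nat.card (Cfsg.Out ↥N) = 6 := by
    rw [H55.OutGen.card_out_congr (eN.symm.trans e), H149.PGU.card_out_psu (p := 5) (f := 1) (q := 5) (n := 3) le_rfl
      (by norm_num) hF le_rfl (by norm_num)]
    norm_num
  have h5 : ¬ 5 ∣ N.index := by
    intro h
    have h1 := h.trans hidx
    rw [hout] at h1
    norm_num at h1
  have hfin := H678.PV.hasDZ_over Nat.prime_five N hNdz h5
  have hcardN : ¬ 5 ^ 4 ∣ Nat.card (H ⧸ C) := by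
    intro h
    rw [← N.card_mul_index] at h
    have h1 : 5 ^ 4 ∣ Nat.card ↥N :=
      (Nat.Coprime.pow_left 4 ((Nat.Prime.coprime_iff_not_dvd Nat.prime_five).2 h5)).dvd_of_dvd_mul_right h
    have h2 := Num.card_psu hF (eN.symm.trans e)
    norm_num at h2
    rw [show Nat.card ↥N = 126000 by omega] at h1
    norm_num at h1
  subst hC
  exact ⟨hfin, hcardN⟩

end quot

section ker

variable {H : Type} [Group H] [Finite H] {g h w : H} {J : Subgroup H} {u v : H}

/-- **The kernel** -/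
theorem not_dvd_ker (X : Dat g h w J u v) (L : Subgroup (H ⧸ pPrimeCore 5 H)) [hLn : L.Normal]
    (hW : Odd (Nat.card ↥(centralizer (L : Set (H ⧸ pPrimeCore 5 H)))))
    (hgL : QuotientGroup.mk' (pPrimeCore 5 H) g ∈ L) (hz : Nat.card ↥(centralizer ({g ^ 4} : Set H)) = 1200)
    {e k : H} (he5 : e ^ 5 = 1) (hez : e * g ^ 4 = g ^ 4 * e) (hkz : k * g ^ 4 = g ^ 4 * k)
    (hne : (e * k * e⁻¹ * k⁻¹) ^ 75 ≠ 1) :
    ¬ 25 ∣ Nat.card ↥((QuotientGroup.mk' (centralizer (L : Set (H ⧸ pPrimeCore 5 H)))).comp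
      (QuotientGroup.mk' (pPrimeCore 5 H))).ker := by
  intro h25
  have hp5 : Fact (Nat.Prime 5) := ⟨Nat.prime_five⟩
  have hp2 : Fact (Nat.Prime 2) := ⟨Nat.prime_two⟩
  have hn := Lib.Cores.pPrimeCore_normal (G := H) 5
  have hcop := Lib.Cores.pPrimeCore_coprime (G := H) 5
  have hodd := X.odd_core
  obtain ⟨z, hzdef⟩ : ∃ z, z = g ^ 4 := ⟨_, rfl⟩
  rw [← hzdef] at hz hez hkz
  have hzz : z * z = 1 := by rw [hzdef, ← pow_add]; exact X.D.g8
  let π := QuotientGroup.mk' (pPrimeCore 5 H)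
  let Cb := centralizer (L : Set (H ⧸ pPrimeCore 5 H))
  have hπ1 : ∀ x, π x = 1 ↔ x ∈ pPrimeCore 5 H := fun x => QuotientGroup.eq_one_iff x
  let C := Cb.comap π
  have hkerC : ((QuotientGroup.mk' (centralizer (L : Set (H ⧸ pPrimeCore 5 H)))).comp
      (QuotientGroup.mk' (pPrimeCore 5 H))).ker = C := by
    ext x
    rw [MonoidHom.mem_ker, MonoidHom.comp_apply]
    exact QuotientGroup.eq_one_iff _
  rw [hkerC] at h25
  have hCn : C.Normal := (inferInstance : Cb.Normal).comap π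
  have hzL : π z ∈ L := by
    rw [hzdef, map_pow]
    exact L.pow_mem hgL 4
  -- representatives commuting with `z`
  have hrep : ∀ c ∈ C, ∃ y ∈ C ⊓ centralizer ({z} : Set H), π y = π c := by
    intro c hc
    have hcomm : π z * π c = π c * π z := (mem_centralizer_iff.1 hc) _ hzL
    have hr : ∀ r ∈ pPrimeCore 5 H, c⁻¹ * (z * (c * r) * z) ∈ pPrimeCore 5 H := by
      intro r hr
      rw [← hπ1] at hr ⊢
      rw [map_mul, map_mul, map_mul, map_mul, map_inv, hr, mul_one, hcomm, mul_assoc (π c), ← map_mul π z z, hzz,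
        map_one, mul_one, inv_mul_cancel]
    let σ : Equiv.Perm ↥(pPrimeCore 5 H) :=
      { toFun := fun r => ⟨c⁻¹ * (z * (c * r) * z), hr r r.2⟩
        invFun := fun r => ⟨c⁻¹ * (z * (c * r) * z), hr r r.2⟩
        left_inv := fun r => by
          apply Subtype.ext
          show c⁻¹ * (z * (c * (c⁻¹ * (z * (c * r) * z))) * z) = r
          calc c⁻¹ * (z * (c * (c⁻¹ * (z * (c * r) * z))) * z) = c⁻¹ * ((z * z) * (c * r) * (z * z)) := by group
            _ = r := by rw [hzz]; group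
        right_inv := fun r => by
          apply Subtype.ext
          show c⁻¹ * (z * (c * (c⁻¹ * (z * (c * r) * z))) * z) = r
          calc c⁻¹ * (z * (c * (c⁻¹ * (z * (c * r) * z))) * z) = c⁻¹ * ((z * z) * (c * r) * (z * z)) := by group
            _ = r := by rw [hzz]; group }
    have hσ : σ ^ 2 ^ 1 = 1 := by
      rw [pow_one, pow_two]
      ext r
      exact congrArg Subtype.val (σ.left_inv r)
    have := Fintype.ofFinite ↥(pPrimeCore 5 H)
    obtain ⟨r, hr⟩ := Equiv.Perm.exists_fixed_point_of_prime (p := 2) (n := 1) (α := ↥(pPrimeCore 5 H)) (by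
      rw [← Nat.card_eq_fintype_card]
      exact fun h => (Nat.not_even_iff_odd.2 hodd) (even_iff_two_dvd.2 h)) hσ
    have hr1 : c⁻¹ * (z * (c * r) * z) = r := congrArg Subtype.val hr
    have hr2 : z * (c * r) * z = c * r := by
      rw [← hr1]
      rw [hr1]
      calc z * (c * r) * z = c * (c⁻¹ * (z * (c * r) * z)) := by group
        _ = c * r := by rw [hr1]
    refine ⟨c * r, mem_inf.2 ⟨C.mul_mem hc ?_, ?_⟩, ?_⟩
    · show π r ∈ Cb
      rw [(hπ1 _).2 r.2]
      exact one_mem _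
    · rw [mem_centralizer_singleton_iff]
      calc c * r * z = (z * (c * r) * z) * z := by rw [hr2]
        _ = z * (c * r) * (z * z) := by group
        _ = z * (c * r) := by rw [hzz, mul_one]
    · rw [map_mul, (hπ1 _).2 r.2, mul_one]
  have hsurj : ∀ q ∈ Cb, ∃ c ∈ C, π c = q := by
    intro q hq
    obtain ⟨c, rfl⟩ := QuotientGroup.mk'_surjective _ q
    exact ⟨c, hq, rfl⟩
  have hCbY : Nat.card ↥Cb ∣ Nat.card ↥(C ⊓ centralizer ({z} : Set H) : Subgroup H) := by
    have h1 : (C ⊓ centralizer ({z} : Set H)).map π = Cb := by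
      apply le_antisymm
      · rintro _ ⟨y, hy, rfl⟩
        exact (mem_inf.1 hy).1
      · intro q hq
        obtain ⟨c, hc, rfl⟩ := hsurj q hq
        obtain ⟨y, hy, hyc⟩ := hrep c hc
        exact ⟨y, hy, hyc⟩
    rw [← h1]
    exact card_map_dvd _ _
  -- `|C| = |C̄| |R|`
  have hCcard : ∃ r, r ∣ Nat.card ↥(pPrimeCore 5 H) ∧ Nat.card ↥C = Nat.card ↥Cb * r := by
    let θ : ↥C →* ↥Cb := π.subgroupComap Cb
    have hθ : Function.Surjective θ := π.subgroupComap_surjective_of_surjective Cb (QuotientGroup.mk'_surjective _)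
    refine ⟨Nat.card ↥θ.ker, ?_, ?_⟩
    · have h1 : θ.ker.map C.subtype ≤ pPrimeCore 5 H := by
        rintro _ ⟨y, hy, rfl⟩
        rw [← hπ1]
        exact congrArg Subtype.val hy
      have h2 := card_dvd_of_le h1
      rwa [card_map_of_injective C.subtype_injective] at h2
    · rw [← θ.ker.card_mul_index, index_ker, MonoidHom.range_eq_top.2 hθ, card_top, mul_comm]
  obtain ⟨r, hr, hCr⟩ := hCcard
  have hr5 : Nat.Coprime 25 r := by
    have h1 : Nat.Coprime r 5 := Nat.Coprime.coprime_dvd_left hr hcop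
    exact (Nat.Coprime.pow_right 2 h1).symm
  have h25Y : 25 ∣ Nat.card ↥(C ⊓ centralizer ({z} : Set H) : Subgroup H) := by
    rw [hCr] at h25
    exact (hr5.dvd_of_dvd_mul_right h25).trans hCbY
  have hCodd : Odd (Nat.card ↥C) := by
    rw [hCr]
    exact hW.mul (hodd.of_dvd_nat hr)
  -- `e ∈ C`
  let M := C.subgroupOf (centralizer ({z} : Set H))
  have hMn : M.Normal := inferInstance
  have hMc : Nat.card ↥M = Nat.card ↥(C ⊓ centralizer ({z} : Set H) : Subgroup H) := by
    rw [← card_map_of_injective (centralizer ({z} : Set H)).subtype_injective, subgroupOf_map_subtype]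
  have hMi : ¬ 5 ∣ M.index := by
    intro h5
    have h1 := M.card_mul_index
    rw [hz, hMc] at h1
    have h2 : 25 * 5 ∣ 1200 := by
      rw [← h1]
      exact Nat.mul_dvd_mul h25Y h5
    norm_num at h2
  have hec : e ∈ centralizer ({z} : Set H) := mem_centralizer_singleton_iff.2 hez
  have heC : e ∈ C := by
    have h1 : (QuotientGroup.mk' M ⟨e, hec⟩) = 1 := by
      have h2 : (QuotientGroup.mk' M ⟨e, hec⟩) ^ 5 = 1 := by
        rw [← map_pow]
        have h3 : (⟨e, hec⟩ : ↥(centralizer ({z} : Set H))) ^ 5 = 1 := Subtype.ext he5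
        rw [h3, map_one]
      by_contra hne1
      have h3 := orderOf_eq_prime h2 hne1
      apply hMi
      rw [← h3]
      exact orderOf_dvd_natCard _
    have h2 : (⟨e, hec⟩ : ↥(centralizer ({z} : Set H))) ∈ M := (QuotientGroup.eq_one_iff _).1 h1
    exact h2
  have hcC : e * k * e⁻¹ * k⁻¹ ∈ C := by
    have h1 : e * k * e⁻¹ * k⁻¹ = e * (k * e⁻¹ * k⁻¹) := by group
    rw [h1]
    exact C.mul_mem heC (hCn.conj_mem _ (C.inv_mem heC) k)
  have hcz : e * k * e⁻¹ * k⁻¹ ∈ centralizer ({z} : Set H) := by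
    have hkc : k ∈ centralizer ({z} : Set H) := mem_centralizer_singleton_iff.2 hkz
    exact mul_mem (mul_mem (mul_mem hec hkc) (inv_mem hec)) (inv_mem hkc)
  apply hne
  have hdvd : Nat.card ↥(C ⊓ centralizer ({z} : Set H) : Subgroup H) ∣ 75 := by
    have h1 : Nat.card ↥(C ⊓ centralizer ({z} : Set H) : Subgroup H) ∣ 1200 := by
      rw [← hz]
      exact card_dvd_of_le inf_le_right
    have h2 : Odd (Nat.card ↥(C ⊓ centralizer ({z} : Set H) : Subgroup H)) :=
      hCodd.of_dvd_nat (card_dvd_of_le inf_le_left)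
    have h3 : Nat.Coprime (Nat.card ↥(C ⊓ centralizer ({z} : Set H) : Subgroup H)) 16 :=
      (Nat.Coprime.pow_right 4 (Nat.coprime_two_right.2 h2))
    exact h3.dvd_of_dvd_mul_left (show _ ∣ 16 * 75 from h1)
  have h1 : orderOf (e * k * e⁻¹ * k⁻¹) ∣ Nat.card ↥(C ⊓ centralizer ({z} : Set H) : Subgroup H) := by
    rw [← Nat.card_zpowers]
    exact card_dvd_of_le (zpowers_le.2 (mem_inf.2 ⟨hcC, hcz⟩))
  exact orderOf_dvd_iff_pow_eq_one.1 (h1.trans hdvd)

end ker

end Cfsg.Agent.H513.HNF
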