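import Cfsg.Agent.H513.HNF.DZ
import Cfsg.Agent.BpSpor.HNFiveQD

/-!
# `HN`, `p = 5` (S4555/S4559) (helper513)

* `hn_5` : an element of order 5 of `HN` with the property of S4559.
-/

set_option autoImplicit false

namespace Cfsg.Agent.H513.HNF

open Cfsg.Agent.HN.Pres Cfsg.Agent.HN.H0Basic
open Cfsg.Agent.HN.P1408 hiding ψ
open Cfsg.Agent.HN.NormalH (ψ)
open Cfsg Cfsg.Agent
open Cfsg.Agent.KFacts.HN
open Cfsg.Agent.CpAutHN.Pairs (instSimple tt order_tt comm_of)
open Cfsg.Agent.CpAutHNFive Cfsg.Agent.CpAutHNFive.TFive Cfsg.Agent.CpAutHNFive.HTab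
open Cfsg.Agent.CpAutHNFive.HFacts Cfsg.Agent.CpAutHNFive.TauFive Cfsg.Agent.CpAutHNFive.QD
open Cfsg.Agent.CpAutHNFive.Main
open Subgroup

universe u

/-- a cycle of length 7 -/
def s7 : alternatingGroup (Fin 7) := ⟨([0, 1, 2, 3, 4, 5, 6] : List (Fin 7)).formPerm, by
  rw [Equiv.Perm.mem_alternatingGroup]; decide +kernel⟩

theorem s7_pow : s7 ^ 7 = 1 := by
  apply Subtype.ext
  change (([0, 1, 2, 3, 4, 5, 6] : List (Fin 7)).formPerm) ^ 7 = 1
  decide +kernel

theorem s7_ne : s7 ≠ 1 := by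
  intro h
  have h2 : ([0, 1, 2, 3, 4, 5, 6] : List (Fin 7)).formPerm = 1 := congrArg Subtype.val h
  exact absurd h2 (by decide +kernel)

/-- the centraliser of `ψ w2` satisfies `Dat` for the explicit elements -/
theorem exists_dat' : ∃ (f : alternatingGroup (Fin 7) →* ↥(centralizer ({ψ (hw w2)} : Set G))),
    Function.Injective f ∧
      Dat (el (hw wg) g_comm) (el (hw wh) h_comm) (el (hw wt) t_comm) f.range (f u7) (f v7) := by
  have FT : ∀ (K : Type) [Group K] [Finite K], Odd (Nat.card K) → Group.IsSolvable K :=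
    fun _ _ _ h => S0205.result h
  have h204 : ∀ (K : Type) [Group K] [Finite K] [IsSimpleGroup K], ¬ IsCyclic K → ∃ E : Subgroup K, IsKleinFour E :=
    fun _ _ _ _ h => S0204.result h
  obtain ⟨e⟩ := (main_cases FT h204 order_X5 order_tt tt_comm).resolve_left not_good
  let f : alternatingGroup (Fin 7) →* ↥(centralizer ({ψ (hw w2)} : Set G)) := e.toMonoidHom.comp jj
  have hf : Function.Injective f := e.injective.comp jj_inj
  let ef : alternatingGroup (Fin 7) ≃* ↥f.range := MonoidHom.ofInjective hf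
  refine ⟨f, hf,
    { D := qdat
      not32 := not32
      w3 := Subtype.ext (by
        change (ψ (hw wt)) ^ 3 = 1
        rw [← map_pow, t_three, map_one])
      hw := Subtype.ext (by
        change (ψ (hw wt))⁻¹ * (ψ (hw wg)) ^ 2 * ψ (hw wt) = ψ (hw wg) * ψ (hw wh)
        rw [← map_pow, ← map_inv, ← map_mul, ← map_mul, ← map_mul, tgt])
      simple := ?_
      card := ?_
      uJ := ⟨u7, rfl⟩
      vJ := ⟨v7, rfl⟩
      u2 := by rw [orderOf_injective f hf, order_u7]
      v2 := by rw [orderOf_injective f hf, order_v7]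
      uv := by rw [← map_mul, ← map_mul, uv7]
      ne := fun h => ne7 (hf h) }⟩
  · have := simple7
    exact (CpQuot.Congr.isSimple_iff ef).1 simple7
  · rw [← Nat.card_congr ef.toEquiv, card7]

/-- the commutator of `we` and `wh` does not have order dividing 75 -/
theorem comm_ne : (hw we * hw wh * (hw we)⁻¹ * (hw wh)⁻¹) ^ 75 ≠ 1 := by
  have h1 : (hw we)⁻¹ = hw we ^ 4 := by
    rw [inv_eq_iff_mul_eq_one, ← pow_succ', e_five]
  have h2 : (hw wh)⁻¹ = hw wh := by
    rw [inv_eq_iff_mul_eq_one, ← pow_two, h_two]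
  rw [h1, h2, ← hw_rp, ← hw_append, ← hw_append, ← hw_append]
  intro h
  have h4 : hw (we ++ wh ++ rp 4 we ++ wh) ^ 4 = 1 := pow_one_of (by decide +kernel)
  have h3 : hw (we ++ wh ++ rp 4 we ++ wh) ^ 3 = 1 := by
    rw [show 75 = 4 * 18 + 3 by norm_num, pow_add, pow_mul, h4, one_pow, one_mul] at h
    exact h
  rw [← hw_rp, ← hw_nil] at h3
  exact hw_ne (p := 0) (by decide +kernel) (by decide) (by norm_num) (by decide +kernel) h3

/-- the component -/
theorem exists_L {f : alternatingGroup (Fin 7) →* ↥(centralizer ({ψ (hw w2)} : Set G))}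
    (X : Dat (el (hw wg) g_comm) (el (hw wh) h_comm) (el (hw wt) t_comm) f.range (f u7) (f v7))
    (hf : Function.Injective f) :
    ∃ L : Subgroup (↥(centralizer ({ψ (hw w2)} : Set G)) ⧸ pPrimeCore 5 ↥(centralizer ({ψ (hw w2)} : Set G))),
      IsComponent L := by
  have hx : orderOf (ψ (hw w2)) = 5 := by rw [orderOf_injective _ emb.inj, order_w2]
  have h57 : ¬ 5 ^ 7 ∣ Nat.card ↥(centralizer ({ψ (hw w2)} : Set G)) := by
    intro h
    have h1 := h.trans (card_subgroup_dvd_card (centralizer ({ψ (hw w2)} : Set G)))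
    rw [Classes.card_HN] at h1
    norm_num at h1
  have hyR : f s7 ∉ pPrimeCore 5 ↥(centralizer ({ψ (hw w2)} : Set G)) := by
    have hn := Lib.Cores.pPrimeCore_normal (G := ↥(centralizer ({ψ (hw w2)} : Set G))) 5
    intro hy
    rcases X.eq_bot_or_le (pPrimeCore 5 ↥(centralizer ({ψ (hw w2)} : Set G))) with h1 | h1
    · have h2 : f s7 ∈ f.range ⊓ pPrimeCore 5 ↥(centralizer ({ψ (hw w2)} : Set G)) := mem_inf.2 ⟨⟨s7, rfl⟩, hy⟩
      rw [h1, mem_bot] at h2
      exact s7_ne (hf (h2.trans (map_one f).symm))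
    · have h2 := card_dvd_of_le h1
      rw [X.card] at h2
      have h3 := X.odd_core
      exact (Nat.not_even_iff_odd.2 h3) (even_iff_two_dvd.2 (dvd_trans (by norm_num) h2))
  exact exists_comp (x := (⟨ψ (hw w2), mem_centralizer_singleton_iff.2 rfl⟩ :
      ↥(centralizer ({ψ (hw w2)} : Set G)))) (y := f s7) (by rw [Subgroup.orderOf_mk, hx])
    (mem_center_iff.2 fun c => Subtype.ext (mem_centralizer_singleton_iff.1 c.2))
    (by rw [← map_pow, s7_pow, map_one]) hyR h57

/-- **`HN`, `p = 5`** -/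
theorem vOrdP_HN : H620.PNorm.VOrdP 5 Cfsg.Spor.HN := by
  have hp5 : Fact (Nat.Prime 5) := ⟨Nat.prime_five⟩
  obtain ⟨f, hf, X⟩ := exists_dat'
  have hx : orderOf (ψ (hw w2)) = 5 := by rw [orderOf_injective _ emb.inj, order_w2]
  have hG : Nat.card Cfsg.Spor.HN = 273030912000000 := by rw [Classes.card_HN]
  have hcard : Nat.card ↥(centralizer ({ψ (hw w2)} : Set G)) ∣ Num.N0 := by
    have h1 := card_subgroup_dvd_card (centralizer ({ψ (hw w2)} : Set G))
    rw [Classes.card_HN] at h1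
    exact h1
  obtain ⟨L, hL⟩ := exists_L X hf
  obtain ⟨hLn, hW, hgL, F, _, _, hF, ⟨e⟩⟩ := comp_data X hcard L hL
  obtain ⟨hdz, h4⟩ := hasDZ_quot L hL hF e
  have h4g : el (hw wg) g_comm ^ 4 = tz (hw w2) := by
    apply Subtype.ext
    change (ψ (hw wg)) ^ 4 = ψ τ
    rw [← map_pow, g_four]
  have hc : Nat.card ↥(centralizer ({el (hw wg) g_comm ^ 4} : Set ↥(centralizer ({ψ (hw w2)} : Set G)))) = 1200 := by
    rw [h4g]
    exact BpSpor.HNFive.card_tz
  have hτ : ∀ v (hv : v * hw w2 = hw w2 * v), el v hv * el (hw wg) g_comm ^ 4 = el (hw wg) g_comm ^ 4 * el v hv := by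
    intro v hv
    rw [h4g]
    apply Subtype.ext
    change ψ v * ψ τ = ψ τ * ψ v
    rw [← map_mul, ← map_mul, τ_comm]
  have hker := not_dvd_ker X L hW hgL hc (e := el (hw we) e_comm) (k := el (hw wh) h_comm)
    (Subtype.ext (by
      change (ψ (hw we)) ^ 5 = 1
      rw [← map_pow, e_five, map_one])) (hτ _ _) (hτ _ _) (by
      intro h
      apply comm_ne
      apply emb.inj
      have h1 := congrArg Subtype.val h
      change (ψ (hw we) * ψ (hw wh) * (ψ (hw we))⁻¹ * (ψ (hw wh))⁻¹) ^ 75 = 1 at h1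
      rw [map_pow, map_mul, map_mul, map_mul, map_inv, map_inv, h1, map_one])
  have hfs : Function.Surjective ((QuotientGroup.mk' (centralizer (L : Set (↥(centralizer ({ψ (hw w2)} : Set G)) ⧸
      pPrimeCore 5 ↥(centralizer ({ψ (hw w2)} : Set G)))))).comp
      (QuotientGroup.mk' (pPrimeCore 5 ↥(centralizer ({ψ (hw w2)} : Set G))))) :=
    (QuotientGroup.mk'_surjective _).comp (QuotientGroup.mk'_surjective _)
  have hker1 : ∀ n : ℕ, n ≠ 0 → ¬ 25 ∣ n → n.factorization 5 ≤ 1 := by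
    intro n hn h
    by_contra h1
    exact h ((Nat.prime_five.pow_dvd_iff_le_factorization hn (k := 2)).2 (by omega))
  refine H678.PV.vOrdP_of_hom (p := 5) hx _ hfs (hker1 _ Nat.card_pos.ne' hker) hdz (n := 6) ?_ ?_
  · rw [hG]
    norm_num
  · intro h6
    have h7 := (Nat.prime_five.pow_dvd_iff_le_factorization Nat.card_pos.ne').1 h6
    rw [← ((QuotientGroup.mk' (centralizer (L : Set (↥(centralizer ({ψ (hw w2)} : Set G)) ⧸
      pPrimeCore 5 ↥(centralizer ({ψ (hw w2)} : Set G)))))).comp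
      (QuotientGroup.mk' (pPrimeCore 5 ↥(centralizer ({ψ (hw w2)} : Set G))))).ker.card_mul_index, index_ker,
      MonoidHom.range_eq_top.2 hfs, card_top, Nat.factorization_mul Nat.card_pos.ne' Nat.card_pos.ne',
      Finsupp.add_apply] at h7
    have h8 := hker1 _ Nat.card_pos.ne' hker
    have h9 : ¬ 4 ≤ (Nat.card ((↥(centralizer ({ψ (hw w2)} : Set G)) ⧸
      pPrimeCore 5 ↥(centralizer ({ψ (hw w2)} : Set G))) ⧸ centralizer (L : Set (↥(centralizer ({ψ (hw w2)} : Set G)) ⧸
      pPrimeCore 5 ↥(centralizer ({ψ (hw w2)} : Set G)))))).factorization 5 := fun h =>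
      h4 ((Nat.prime_five.pow_dvd_iff_le_factorization Nat.card_pos.ne').2 h)
    omega

theorem hn_5 {K : Type u} [Group K] (h : Cfsg.Spor.IsoHN K) : H620.PNorm.VOrdP 5 K := by
  obtain ⟨e⟩ := h
  exact vOrdP_HN.mulEquiv e.symm

end Cfsg.Agent.H513.HNF
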